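import Cfsg.Agent.H851.Rl.Tools
import Cfsg.Agent.H261.Rl.PtCases
import Cfsg.Agent.H74.SpM

/-!
# S3691, `PSL_4(q)`: transvections (helper434)

* `block'` : the block of a point stabiliser, with the kernel
* `nou_of_symp` : a factor containing all symplectic transvections: the other one contains no transvection with centre `v`
  if it fixes `⟨v⟩`
* `tv_of_card` : a large group of symplectic similarities contains all symplectic transvections
-/

set_option autoImplicit false
set_option linter.unusedVariables false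
set_option linter.unusedSectionVars false

namespace Cfsg.Agent.H434.Rl

open Cfsg Cfsg.Geo Matrix Module Cfsg.Agent.H851.Rl Cfsg.Agent.H454.Reg
open Cfsg.Agent.H55.Rl (ac ac_apply ac_mul ac_one ac_inj le_of_fix det_fix)
open Cfsg.Agent.H304.PslT (pre pr toGL_injective range_toGL)
open scoped MatrixGroups

universe u

section block

variable {m : ℕ} {F : Type} [Field F] {v : Fin (m + 1) → F}

/-- the block of a point stabiliser (after helper55), with the kernel -/
theorem block' [Fintype F] {R : Subgroup (GL (Fin (m + 1)) F)} (hv : v ≠ 0)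
    (hR : R ≤ specialLinear (Fin (m + 1)) F)
    (hfix : ∀ x ∈ R, ∃ c : F, (x : Matrix (Fin (m + 1)) (Fin (m + 1)) F) *ᵥ v = c • v) :
    ∃ φ : R →* GL (Fin m) F, Nat.card φ.ker ∣ Fintype.card F ^ m ∧
      (specialLinear (Fin m) F ≤ φ.range → Pt R v) ∧
      ∀ x : R, φ x = 1 → ∀ w : Fin (m + 1) → F, ∃ c : F,
        ((x : GL (Fin (m + 1)) F) : Matrix (Fin (m + 1)) (Fin (m + 1)) F) *ᵥ w = w + c • v := by
  classical
  have hfr : Module.finrank F ((Fin (m + 1) → F) ⧸ (F ∙ v)) = m := by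
    have h1 := Submodule.finrank_quotient_add_finrank (F ∙ v)
    rw [finrank_span_singleton hv, Module.finrank_fintype_fun_eq_card, Fintype.card_fin] at h1
    omega
  obtain ⟨b⟩ : Nonempty (Module.Basis (Fin m) F ((Fin (m + 1) → F) ⧸ (F ∙ v))) :=
    ⟨(Module.finBasis F _).reindex (finCongr hfr)⟩
  -- the action on the quotient
  let q : R →* Matrix (Fin m) (Fin m) F :=
    { toFun := fun x => LinearMap.toMatrix b b ((F ∙ v).mapQ (F ∙ v) (ac x.1) (le_of_fix (hfix x.1 x.2)))
      map_one' := by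
        have h1 : (F ∙ v).mapQ (F ∙ v) (ac (1 : R).1) (le_of_fix (hfix (1 : R).1 (1 : R).2)) = LinearMap.id := by
          ext w
          change Submodule.Quotient.mk (ac (1 : R).1 _) = Submodule.Quotient.mk _
          rw [Subgroup.coe_one, ac_one]
        rw [h1, LinearMap.toMatrix_id]
      map_mul' := fun x y => by
        rw [← LinearMap.toMatrix_comp]
        congr 1
        ext w
        change Submodule.Quotient.mk (ac (x * y : R).1 _) = Submodule.Quotient.mk (ac x.1 (ac y.1 _))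
        rw [Subgroup.coe_mul, ac_mul] }
  have hq : ∀ x : R, q x = LinearMap.toMatrix b b ((F ∙ v).mapQ (F ∙ v) (ac x.1) (le_of_fix (hfix x.1 x.2))) :=
    fun x => rfl
  have hker : ∀ x : R, x ∈ q.toHomUnits.ker → ∀ w, ac x.1 w - w ∈ F ∙ v := by
    intro x hx w
    have h1 : q x = 1 := congrArg Units.val (MonoidHom.mem_ker.1 hx)
    rw [hq, ← LinearMap.toMatrix_id b, (LinearMap.toMatrix b b).injective.eq_iff] at h1
    have h2 := LinearMap.congr_fun h1 (Submodule.Quotient.mk w)
    exact (Submodule.Quotient.eq _).1 h2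
  refine ⟨q.toHomUnits, ?_, ?_, ?_⟩
  · -- the kernel
    have hkv : ∀ x : R, x ∈ q.toHomUnits.ker → ac x.1 v = v := by
      intro x hx
      obtain ⟨c, hc⟩ := hfix x.1 x.2
      have h1 := det_fix hv hc (le_of_fix (hfix x.1 x.2))
      have h2 : q x = 1 := congrArg Units.val (MonoidHom.mem_ker.1 hx)
      have h3 : ((F ∙ v).mapQ (F ∙ v) (ac x.1) (le_of_fix (hfix x.1 x.2))).det = 1 := by
        rw [← LinearMap.det_toMatrix b, ← hq, h2, det_one]
      have h4 : (x.1 : Matrix (Fin (m + 1)) (Fin (m + 1)) F).det = 1 := congrArg Units.val (MonoidHom.mem_ker.1 (hR x.2))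
      rw [h3, h4, mul_one] at h1
      rw [ac_apply, hc, ← h1, one_smul]
    obtain ⟨i, hi⟩ : ∃ i, v i ≠ 0 := by
      by_contra hcon
      push Not at hcon
      exact hv (funext hcon)
    -- the functional
    have hl : ∀ w ∈ F ∙ v, w = (w i / v i) • v := by
      intro w hw
      obtain ⟨t, rfl⟩ := Submodule.mem_span_singleton.1 hw
      rw [Pi.smul_apply, smul_eq_mul, mul_div_assoc, div_self hi, mul_one]
    choose w hw using fun j => Submodule.Quotient.mk_surjective (F ∙ v) (b j)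
    let f : q.toHomUnits.ker →* Multiplicative (Fin m → F) :=
      { toFun := fun x => Multiplicative.ofAdd fun j => (ac x.1.1 (w j) - w j) i / v i
        map_one' := by
          rw [← ofAdd_zero]
          congr 1
          funext j
          change (ac (1 : GL (Fin (m + 1)) F) (w j) - w j) i / v i = 0
          rw [ac_one, sub_self, Pi.zero_apply, zero_div]
        map_mul' := fun x y => by
          rw [← ofAdd_add]
          congr 1
          funext j
          change (ac (x.1.1 * y.1.1) (w j) - w j) i / v i =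
            (ac x.1.1 (w j) - w j) i / v i + (ac y.1.1 (w j) - w j) i / v i
          have h1 := hl _ (hker y.1 y.2 (w j))
          have h2 : ac y.1.1 (w j) = w j + ((ac y.1.1 (w j) - w j) i / v i) • v := by
            rw [← h1]; abel
          have h3 : ac (x.1.1 * y.1.1) (w j) - w j = (ac x.1.1 (w j) - w j) +
              ((ac y.1.1 (w j) - w j) i / v i) • v := by
            rw [ac_mul]
            conv_lhs => rw [h2]
            rw [map_add, map_smul, hkv x.1 x.2]
            abel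
          rw [h3, Pi.add_apply, Pi.smul_apply, smul_eq_mul, add_div, mul_div_assoc _ (v i) (v i), div_self hi, mul_one] }
    have hf : Function.Injective f := by
      rw [injective_iff_map_eq_one]
      intro x hx
      have h1 : ∀ j, ac x.1.1 (w j) = w j := by
        intro j
        have h2 : (ac x.1.1 (w j) - w j) i / v i = 0 := congrFun (congrArg Multiplicative.toAdd hx) j
        have h3 := hl _ (hker x.1 x.2 (w j))
        rw [h2, zero_smul, sub_eq_zero] at h3
        exact h3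
      apply Subtype.ext
      apply Subtype.ext
      apply ac_inj
      intro u
      change ac x.1.1 u = ac 1 u
      rw [ac_one]
      have h4 : ∃ t : F, u = ∑ j, b.repr (Submodule.Quotient.mk u) j • w j + t • v := by
        have h5 : u - ∑ j, b.repr (Submodule.Quotient.mk u) j • w j ∈ F ∙ v := by
          rw [← Submodule.Quotient.eq, ← Submodule.mkQ_apply, ← Submodule.mkQ_apply, map_sum]
          conv_lhs => rw [Submodule.mkQ_apply, ← b.sum_repr (Submodule.Quotient.mk u)]
          apply Finset.sum_congr rfl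
          intro j _
          rw [map_smul]
          congr 1
          exact (hw j).symm
        obtain ⟨t, ht⟩ := Submodule.mem_span_singleton.1 h5
        exact ⟨t, by rw [ht]; abel⟩
      obtain ⟨t, ht⟩ := h4
      rw [ht, map_add, map_sum, map_smul, hkv x.1 x.2]
      congr 1
      apply Finset.sum_congr rfl
      intro j _
      rw [map_smul, h1]
    have h5 := Subgroup.card_dvd_of_injective f hf
    rwa [Nat.card_eq_fintype_card (α := Multiplicative (Fin m → F)), Fintype.card_multiplicative, Fintype.card_fun,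
      Fintype.card_fin] at h5
  · intro hφ
    refine ⟨hv, hR, hfix, ?_⟩
    intro x hx
    obtain ⟨hxd, hxv⟩ := hx
    have hx1 : (F ∙ v) ≤ (F ∙ v).comap (ac x) := le_of_fix ⟨1, by rw [hxv, one_smul]⟩
    have h1 := det_fix hv (c := 1) (by rw [hxv, one_smul]) hx1
    have h2 : (x : Matrix (Fin (m + 1)) (Fin (m + 1)) F).det = 1 := congrArg Units.val (MonoidHom.mem_ker.1 hxd)
    rw [h2, one_mul] at h1
    have h3 : (LinearMap.toMatrix b b ((F ∙ v).mapQ (F ∙ v) (ac x) hx1)).det = 1 := by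
      rw [LinearMap.det_toMatrix, ← h1]
    obtain ⟨y, hy⟩ := hφ (show (Matrix.SpecialLinearGroup.toGL
      (⟨_, h3⟩ : Matrix.SpecialLinearGroup (Fin m) F) : GL (Fin m) F) ∈ specialLinear (Fin m) F from by
        rw [specialLinear, MonoidHom.mem_ker]
        apply Units.ext
        exact h3)
    have h4 : q y = LinearMap.toMatrix b b ((F ∙ v).mapQ (F ∙ v) (ac x) hx1) := congrArg Units.val hy
    rw [hq, (LinearMap.toMatrix b b).injective.eq_iff] at h4
    refine ⟨y.1, y.2, fun w => ?_⟩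
    have h5 := LinearMap.congr_fun h4 (Submodule.Quotient.mk w)
    have h6 : ac y.1 w - ac x w ∈ F ∙ v := (Submodule.Quotient.eq _).1 h5
    obtain ⟨c, hc⟩ := Submodule.mem_span_singleton.1 h6
    refine ⟨c, ?_⟩
    rw [hc]
    change ac y.1 w = ac x w + (ac y.1 w - ac x w)
    abel
  · intro x hx w
    obtain ⟨c, hc⟩ := Submodule.mem_span_singleton.1 (hker x (MonoidHom.mem_ker.2 hx) w)
    refine ⟨c, ?_⟩
    rw [hc]
    change ac x.1 w = w + (ac x.1 w - w)
    abel

end block

section conj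

variable {G : Type u} [Group G] {T : Subgroup G} {n : ℕ} {F : Type} [Field F]

theorem mem_pg {e : T ≃* Matrix.ProjectiveSpecialLinearGroup (Fin n) F} {X : Subgroup G} {x : GL (Fin n) F}
    (hx : x ∈ pg e X) : ∃ x1 : SpecialLinearGroup (Fin n) F, SpecialLinearGroup.toGL x1 = x ∧
      ∃ τ : T, (τ : G) ∈ X ∧ e τ = pr n F x1 := by
  obtain ⟨x1, hx1, rfl⟩ := hx
  obtain ⟨τ, hτ, hτe⟩ := hx1
  exact ⟨x1, rfl, τ, hτ, hτe⟩

variable [Finite G]

/-- no element of `pg X` with a fixed vector is conjugate to an element of `pg Y` (after helper72) -/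
theorem eq_one_of_conj {X Y : Subgroup G} (h : Fac T X Y) {e : T ≃* Matrix.ProjectiveSpecialLinearGroup (Fin n) F}
    {x y t : GL (Fin n) F} (hx : x ∈ pg e X) (hy : y ∈ pg e Y) (ht : t ∈ specialLinear (Fin n) F)
    (hxy : t * x * t⁻¹ = y) {w : Fin n → F} (hw : w ≠ 0) (hxw : (x : Matrix (Fin n) (Fin n) F) *ᵥ w = w) : x = 1 := by
  obtain ⟨x1, rfl, τx, hτx, hex⟩ := mem_pg hx
  obtain ⟨y1, rfl, τy, hτy, hey⟩ := mem_pg hy
  rw [← range_toGL] at ht
  obtain ⟨t1, rfl⟩ := ht
  have h1 : t1 * x1 * t1⁻¹ = y1 := by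
    apply toGL_injective
    rw [map_mul, map_mul, map_inv]
    exact hxy
  obtain ⟨τt, hτt⟩ := e.surjective (pr n F t1)
  have h2 : τt * τx * τt⁻¹ = τy := by
    apply e.injective
    rw [map_mul, map_mul, map_inv, hτt, hex, hey, ← h1, map_mul, map_mul, map_inv]
  have h3 : (τx : G) = 1 := by
    refine h.not_conj hτx (τt : G) ?_
    have h4 : (τt : G) * τx * (τt : G)⁻¹ = τy := congrArg Subtype.val h2
    rw [h4]
    exact hτy
  have h4 : τx = 1 := Subtype.ext h3
  rw [h4, map_one] at hex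
  have h5 : x1 ∈ Subgroup.center (SpecialLinearGroup (Fin n) F) := (QuotientGroup.eq_one_iff x1).1 hex.symm
  rw [Matrix.SpecialLinearGroup.mem_center_iff] at h5
  obtain ⟨r, -, hr⟩ := h5
  have h6 : r = 1 := by
    have h7 : (x1 : Matrix (Fin n) (Fin n) F) *ᵥ w = w := hxw
    rw [← hr, Matrix.scalar_apply, ← Matrix.smul_one_eq_diagonal, smul_mulVec, one_mulVec] at h7
    have h8 : (r - 1) • w = 0 := by rw [sub_smul, one_smul, h7, sub_self]
    exact sub_eq_zero.1 ((smul_eq_zero.1 h8).resolve_right hw)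
  have h7 : x1 = 1 := by
    apply Subtype.ext
    rw [← hr, h6, map_one]
    rfl
  rw [h7, map_one]

/-- two transvections with the same centre -/
theorem conj_tv {v f g : Fin n → F} (hf : f ⬝ᵥ v = 0) (hg : g ⬝ᵥ v = 0) (hg0 : g ≠ 0) (hfg : ∀ c : F, f ≠ c • g)
    {x y : GL (Fin n) F} (hx : (x : Matrix (Fin n) (Fin n) F) = 1 + vecMulVec v g)
    (hy : (y : Matrix (Fin n) (Fin n) F) = 1 + vecMulVec v f) :
    ∃ t ∈ specialLinear (Fin n) F, t * x * t⁻¹ = y := by
  obtain ⟨u, hu1, hu2⟩ := Cfsg.Agent.H261.Rl.exists_dual (f := g) (μ := g - f) (fun c hc => by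
    rw [smul_sub, eq_sub_iff_add_eq] at hc
    have h1 : c • f = (c - 1) • g := by
      rw [sub_smul, one_smul, ← hc]; abel
    by_cases h0 : c = 0
    · rw [h0, zero_smul, zero_smul, add_zero] at hc
      exact hg0 hc
    · apply hfg (c⁻¹ * (c - 1))
      rw [mul_smul, ← h1, smul_smul, inv_mul_cancel₀ h0, one_smul])
  have hμ : (g - f) ⬝ᵥ (-u) = 0 := by rw [dotProduct_neg, hu1, neg_zero]
  have hgu : g ⬝ᵥ (-u) = 1 := by rw [dotProduct_neg, hu2, neg_neg]
  have hfu : f ⬝ᵥ (-u) = 1 := by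
    rw [sub_dotProduct, hgu] at hμ
    exact (sub_eq_zero.1 hμ).symm
  have hμv : (g - f) ⬝ᵥ v = 0 := by rw [sub_dotProduct, hf, hg, sub_zero]
  refine ⟨Cfsg.Agent.H873.tv (-u) (g - f) hμ, Cfsg.Agent.H873.tv_mem_specialLinear _ _ _, ?_⟩
  rw [mul_inv_eq_iff_eq_mul]
  apply Cfsg.Agent.H873.gl_ext
  intro w
  rw [Units.val_mul, Units.val_mul, ← mulVec_mulVec, ← mulVec_mulVec, Cfsg.Agent.H873.tv_mulVec,
    Cfsg.Agent.H873.tv_mulVec, hx, hy, Cfsg.Agent.H873.one_add_mulVec, Cfsg.Agent.H873.one_add_mulVec,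
    dotProduct_add, dotProduct_add, dotProduct_smul, dotProduct_smul, hμv, hfu, smul_zero, add_zero, smul_eq_mul,
    mul_one, sub_dotProduct]
  have e1 : f ⬝ᵥ w + (g ⬝ᵥ w - f ⬝ᵥ w) = g ⬝ᵥ w := by ring
  rw [e1]
  abel

/-- if `pg X` contains a group of transvections with centre `v`, then `pg Y` contains none -/
theorem nou_of_tv {X Y : Subgroup G} (h : Fac T X Y) {e : T ≃* Matrix.ProjectiveSpecialLinearGroup (Fin n) F}
    (hn : 2 ≤ n) {v g : Fin n → F} (hv : v ≠ 0) (hg0 : g ≠ 0)
    (hX : ∀ a : F, Cfsg.Agent.H873.HasTv (pg e X) v (a • g)) : NoU (pg e Y) v := by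
  intro y hy hyv
  by_contra hne
  obtain ⟨f, hf, hyf⟩ := Cfsg.Agent.H261.Rl.exists_tv (pg_le e Y hy) hyv
  -- a vector fixed by the transvections
  have hv1 : ∀ (a : F) (x : GL (Fin n) F), (x : Matrix (Fin n) (Fin n) F) = 1 + vecMulVec v (a • g) →
      (a • g) ⬝ᵥ v = 0 → (x : Matrix (Fin n) (Fin n) F) *ᵥ v = v := by
    intro a x hx h0
    rw [hx, Cfsg.Agent.H873.one_add_mulVec, h0, zero_smul, add_zero]
  by_cases hc : ∃ c : F, f = c • g
  · obtain ⟨c, rfl⟩ := hc
    obtain ⟨h0, x, hx, hxe⟩ := hX c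
    have hxy : x = y := Units.ext (by rw [hxe, hyf])
    apply hne
    rw [← hxy]
    exact eq_one_of_conj h hx hy (t := 1) (Subgroup.one_mem _) (by rw [one_mul, inv_one, mul_one, hxy]) hv
      (hv1 c x hxe h0)
  · push Not at hc
    obtain ⟨h0, x, hx, hxe⟩ := hX 1
    have h1 := hv1 1 x hxe h0
    rw [one_smul] at h0 hxe
    obtain ⟨t, ht, hxy⟩ := conj_tv hf h0 hg0 hc hxe hyf
    have h2 := eq_one_of_conj h hx hy ht hxy hv h1
    apply hne
    rw [← hxy, h2, mul_one, mul_inv_cancel]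

end conj

section sp

variable {F : Type} [Field F] [Fintype F]

/-- the functional -/
def fn (f : (Fin 4 → F) → (Fin 4 → F) → F) (v : Fin 4 → F) : Fin 4 → F := fun i => f (Pi.single i 1) v

theorem fn_dot {f : (Fin 4 → F) → (Fin 4 → F) → F} (hf : IsSymplecticForm f) (v w : Fin 4 → F) :
    fn f v ⬝ᵥ w = f w v := by
  have hb := hf.bilinear
  let B : (Fin 4 → F) →ₗ[F] (Fin 4 → F) →ₗ[F] F :=
    LinearMap.mk₂ F f (fun x y v => hb.add_left x y v)
      (fun c x v => by rw [hb.smul_left, smul_eq_mul]) (fun v x y => hb.add_right v x y)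
      (fun c v x => by rw [hb.smul_right, smul_eq_mul])
  have h1 := LinearMap.pi_apply_eq_sum_univ (B.flip v) w
  have h2 : B.flip v w = f w v := rfl
  rw [← h2, h1]
  unfold dotProduct
  apply Finset.sum_congr rfl
  intro i _
  rw [smul_eq_mul, mul_comm]
  congr 1
  show f (Pi.single i 1) v = f (fun j => if i = j then 1 else 0) v
  congr 1
  funext j
  rw [Pi.single_apply]
  congr 1
  exact propext eq_comm

theorem fn_ne {f : (Fin 4 → F) → (Fin 4 → F) → F} (hf : IsSymplecticForm f) {v : Fin 4 → F} (hv : v ≠ 0) :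
    fn f v ≠ 0 := by
  intro h0
  obtain ⟨⟨y, hy⟩, -⟩ := hf.nondegenerate v hv
  apply hy
  have h1 := fn_dot hf v y
  rw [h0, zero_dotProduct] at h1
  exact h1.symm

/-- a large group of symplectic similarities contains all symplectic transvections -/
theorem tv_of_card {R : Subgroup (GL (Fin 4) F)} {f : (Fin 4 → F) → (Fin 4 → F) → F} (hf : IsSymplecticForm f)
    (hR : R ≤ similarityGroup f) (hq : 4 ≤ Fintype.card F) {N : ℕ} (hN : Fintype.card F ^ 9 ≤ N * Nat.card R)
    (hNq : N ≤ Fintype.card F) (v : Fin 4 → F) (a : F) : Cfsg.Agent.H873.HasTv R v (a • fn f v) := by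
  classical
  have hb := hf.bilinear
  let B : (Fin 4 → F) →ₗ[F] (Fin 4 → F) →ₗ[F] F :=
    LinearMap.mk₂ F f (fun x y v => hb.add_left x y v)
      (fun c x v => by rw [hb.smul_left, smul_eq_mul]) (fun v x y => hb.add_right v x y)
      (fun c v x => by rw [hb.smul_right, smul_eq_mul])
  have hB : ∀ x, B x x = 0 := hf.alternating
  have hnd : ∀ x, (∀ y, B x y = 0) → x = 0 := by
    intro x hx
    by_contra h0
    obtain ⟨-, y, hy⟩ := hf.nondegenerate x h0
    exact hy (hx y)
  have hS : Cfsg.Agent.H74.Psp.Symp B := ⟨hB, hnd⟩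
  let gE := Cfsg.Agent.LieClassical.OrthFinite.glEquiv (Fin 4) F
  have hcard := H727.GW.card_isomGroup B hB hnd (m := 2) (by rw [Module.finrank_fintype_fun_eq_card]; rfl)
  have hfin : Finite ((Fin 4 → F) ≃ₗ[F] (Fin 4 → F)) := Finite.of_equiv _ gE.toEquiv
  have hcSp : Nat.card (Cfsg.Agent.H74.Psp.Sp B) ≤ Fintype.card F ^ 10 := by
    have h1 : Nat.card (Cfsg.Agent.H74.Psp.Sp B) = Nat.card (H727.GW.isomGroup B) := rfl
    rw [h1, hcard]
    calc _ ≤ Fintype.card F ^ (2 ^ 2) * Fintype.card F ^ (2 * (2 + 1)) :=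
          Nat.mul_le_mul_left _ (H951.Rl.prod_le _ 2)
      _ = Fintype.card F ^ 10 := by rw [← pow_add]; norm_num
  let H : Subgroup (Cfsg.Agent.H74.Psp.Sp B) := (R.map gE.toMonoidHom).subgroupOf (Cfsg.Agent.H74.Psp.Sp B)
  let I : Subgroup (GL (Fin 4) F) := R ⊓ (Cfsg.Agent.H74.Psp.Sp B).comap gE.toMonoidHom
  have hI : Nat.card I = Nat.card H := by
    refine Nat.card_congr (Equiv.ofBijective (fun x : I => (⟨⟨gE x.1, x.2.2⟩, ⟨x.1, x.2.1, rfl⟩⟩ : H)) ⟨?_, ?_⟩)
    · intro x y hxy
      apply Subtype.ext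
      exact gE.injective (congrArg (fun z : H => z.1.1) hxy)
    · rintro ⟨⟨z, hz⟩, x, hx, hxz⟩
      refine ⟨⟨x, hx, ?_⟩, ?_⟩
      · show gE x ∈ Cfsg.Agent.H74.Psp.Sp B
        have : gE x = z := hxz
        rw [this]
        exact hz
      · apply Subtype.ext
        apply Subtype.ext
        exact hxz
  -- the multipliers
  let μ : R → Fˣ := fun g => (hR g.2).choose
  have hμ : ∀ (g : R) (u v : Fin 4 → F),
      f ((g : GL (Fin 4) F) *ᵥ u) ((g : GL (Fin 4) F) *ᵥ v) = (μ g : F) * f u v := fun g => (hR g.2).choose_spec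
  have h1 := H951.Rl.card_le_mul R I μ (by
    intro a b hab
    refine ⟨R.mul_mem (R.inv_mem a.2) b.2, ?_⟩
    show (gE ((a : GL (Fin 4) F)⁻¹ * b)) ∈ Cfsg.Agent.H74.Psp.Sp B
    intro u v
    show f (((((a : GL (Fin 4) F)⁻¹ * b : GL (Fin 4) F)) : Matrix (Fin 4) (Fin 4) F) *ᵥ u)
      (((((a : GL (Fin 4) F)⁻¹ * b : GL (Fin 4) F)) : Matrix (Fin 4) (Fin 4) F) *ᵥ v) = f u v
    have h2 := hμ a (((((a : GL (Fin 4) F)⁻¹ * b : GL (Fin 4) F)) : Matrix (Fin 4) (Fin 4) F) *ᵥ u)
      (((((a : GL (Fin 4) F)⁻¹ * b : GL (Fin 4) F)) : Matrix (Fin 4) (Fin 4) F) *ᵥ v)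
    rw [Matrix.mulVec_mulVec, Matrix.mulVec_mulVec, ← Units.val_mul, mul_inv_cancel_left, hμ b, hab] at h2
    exact (mul_left_cancel₀ (μ b).ne_zero h2).symm)
  rw [Nat.card_units, Nat.card_eq_fintype_card (α := F), hI] at h1
  have hall : ∀ x, Cfsg.Agent.H74.Psp.Tv H x := by
    by_contra hcon
    push Not at hcon
    have h2 := Cfsg.Agent.H74.Psp.min_index hS hcon (m := 2) le_rfl
      (by rw [Nat.card_eq_fintype_card, Nat.card_eq_fintype_card, Fintype.card_fun, Fintype.card_fin])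
      (by rw [Nat.card_eq_fintype_card]; omega) (by rw [Nat.card_eq_fintype_card]; omega)
    rw [Nat.card_eq_fintype_card, Nat.card_eq_fintype_card, Fintype.card_fun, Fintype.card_fin] at h2
    have h3 := H.card_mul_index
    have h4 : 0 < Nat.card H := Nat.card_pos
    set q := Fintype.card F with hqd
    set i := H.index with hi
    set c := Nat.card H with hc
    have h5 : i ≤ N * (q - 1) * q := by
      have h6 : q ^ 9 * i ≤ q ^ 9 * (N * (q - 1) * q) := by
        calc q ^ 9 * i ≤ N * Nat.card R * i := Nat.mul_le_mul_right _ hN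
          _ ≤ N * ((q - 1) * c) * i := Nat.mul_le_mul_right _ (Nat.mul_le_mul_left _ h1)
          _ = N * (q - 1) * (c * i) := by ring
          _ ≤ N * (q - 1) * q ^ 10 := Nat.mul_le_mul_left _ (by rw [h3]; exact hcSp)
          _ = q ^ 9 * (N * (q - 1) * q) := by ring
      exact Nat.le_of_mul_le_mul_left h6 (by positivity)
    have h7 : q ^ 4 - 1 ≤ q * (q - 1) * q * (q - 1) := by
      refine h2.trans (Nat.mul_le_mul_right _ (h5.trans ?_))
      exact Nat.mul_le_mul_right _ (Nat.mul_le_mul_right _ hNq)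
    obtain ⟨y, hy⟩ : ∃ y, q = y + 2 := ⟨q - 2, by omega⟩
    rw [hy, show y + 2 - 1 = y + 1 by omega] at h7
    have h8 : (y + 2) ^ 4 ≤ (y + 2) * (y + 1) * (y + 2) * (y + 1) + 1 := by
      have := Nat.sub_le_iff_le_add.1 h7
      exact this
    have h9 : (y + 2) ^ 4 = (y + 2) * (y + 1) * (y + 2) * (y + 1) + (2 * y ^ 3 + 11 * y ^ 2 + 20 * y + 12) := by ring
    rw [h9] at h8
    have h10 := Nat.le_of_add_le_add_left h8
    linarith [Nat.zero_le (y ^ 3), Nat.zero_le (y ^ 2), Nat.zero_le y]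
  have h2 := hall v a
  obtain ⟨x, hx, hxe⟩ := h2
  have hxw : ∀ w, (x : Matrix (Fin 4) (Fin 4) F) *ᵥ w = w + (a * f w v) • v := by
    intro w
    have h3 := Cfsg.Agent.H74.Psp.t_smul hS v a w
    have h4 : gE x w = ((Cfsg.Agent.H74.Psp.t B v a : Cfsg.Agent.H74.Psp.Sp B) : (Fin 4 → F) ≃ₗ[F] (Fin 4 → F)) w :=
      LinearEquiv.congr_fun hxe w
    exact h4.trans h3
  refine ⟨?_, x, hx, ?_⟩
  · rw [smul_dotProduct, fn_dot hf, hf.alternating, smul_zero]
  · apply Matrix.mulVec_injective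
    funext w
    rw [hxw, Cfsg.Agent.H873.one_add_mulVec, smul_dotProduct, fn_dot hf, smul_eq_mul]

end sp

end Cfsg.Agent.H434.Rl
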